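import Mathlib
import Cfsg.Prelude.Def_OddOrderLocal
import Cfsg.Agent.Lib.OddLocal.MaxF2
import Cfsg.Agent.Lib.OddLocal.MaxF3
import Cfsg.Agent.Lib.Hall.Generation
import Cfsg.Agent.Lib.Invol.Basic
import Cfsg.Agent.Lib.Geo.PrimSolvable
import Cfsg.Agent.Lib.FStar.Basic
import Cfsg.Agent.Lib.Uniq.Trans

/-!
# The Thompson dihedral lemma
-/

set_option autoImplicit false

namespace Cfsg.Agent.Lib.OddLocal.Dih

open Subgroup Cfsg

variable {G : Type*} [Group G] [Finite G]

theorem mem_zpowers_sq {a x : G} (h : a ^ 2 = 1) (hx : x ∈ zpowers a) : x = 1 ∨ x = a := by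
  obtain ⟨k, rfl⟩ := Subgroup.mem_zpowers_iff.mp hx
  rcases Int.even_or_odd' k with ⟨m, rfl | rfl⟩
  · left
    rw [zpow_mul, show a ^ (2 : ℤ) = a ^ 2 from zpow_ofNat a 2, h, one_zpow]
  · right
    rw [zpow_add, zpow_mul, show a ^ (2 : ℤ) = a ^ 2 from zpow_ofNat a 2, h, one_zpow, one_mul, zpow_one]

theorem ne_inv_of_odd {z : G} (hz : Odd (orderOf z)) (h1 : z ≠ 1) : z⁻¹ ≠ z := by
  intro h
  have h2 : z ^ 2 = 1 := by
    rw [sq]
    nth_rewrite 1 [← h]
    exact inv_mul_cancel z
  have h3 := orderOf_dvd_of_pow_eq_one h2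
  obtain ⟨k, hk⟩ := hz
  have h4 : orderOf z = 1 := by
    rcases (Nat.dvd_prime Nat.prime_two).mp h3 with h | h
    · exact h
    · omega
  exact h1 (orderOf_eq_one_iff.mp h4)

/-- Eigen-elements. -/
theorem exists_eigen {A : Subgroup G} (hA : IsElementaryAbelian 2 A) :
    ∀ (n : ℕ) (Q : Subgroup G), Nat.card Q ≤ n → Odd (Nat.card Q) → A ≤ normalizer (Q : Set G) →
    ∀ a ∈ A, a ∉ centralizer (Q : Set G) →
    ∃ z ∈ Q, z ≠ 1 ∧ (∀ b ∈ A, b * z * b⁻¹ = z ∨ b * z * b⁻¹ = z⁻¹) ∧ a * z * a⁻¹ = z⁻¹ := by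
  have hexp := hA.2
  have hcomm : ∀ x ∈ A, ∀ y ∈ A, x * y = y * x := fun x hx y hy =>
    congrArg Subtype.val (hA.1.is_comm.comm ⟨x, hx⟩ ⟨y, hy⟩)
  intro n
  induction n with
  | zero =>
    intro Q hQ
    exact absurd (Nat.card_pos (α := Q)) (by omega)
  | succ n ih =>
    intro Q hQ hodd hAQ a ha haC
    have ha2 : a ^ 2 = 1 := hexp a ha
    have hainv : a⁻¹ = a := by
      rw [inv_eq_iff_mul_eq_one, ← sq, ha2]
    by_cases h : ∀ b ∈ A, b ∈ centralizer (Q : Set G) ∨ b * a⁻¹ ∈ centralizer (Q : Set G)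
    · -- direct
      rw [mem_centralizer_iff] at haC
      push Not at haC
      obtain ⟨x, hx, hne⟩ := haC
      have hxa : a * x * a⁻¹ ∈ Q := (mem_normalizer_iff.mp (hAQ ha) x).mp hx
      have hInv : a * (x⁻¹ * (a * x * a⁻¹)) * a⁻¹ = (x⁻¹ * (a * x * a⁻¹))⁻¹ := by
        have h2 : a * a = 1 := by rw [← sq, ha2]
        have h3 : a⁻¹ * a⁻¹ = 1 := by rw [hainv, h2]
        calc a * (x⁻¹ * (a * x * a⁻¹)) * a⁻¹ = (a * x⁻¹ * a⁻¹) * ((a * a) * x * (a⁻¹ * a⁻¹)) := by group
          _ = (a * x⁻¹ * a⁻¹) * x := by rw [h2, h3]; group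
          _ = _ := by group
      refine ⟨x⁻¹ * (a * x * a⁻¹), Q.mul_mem (Q.inv_mem hx) hxa, ?_, ?_, ?_⟩
      · intro h0
        apply hne
        have h1 : a * x * a⁻¹ = x := by
          have := congrArg (fun t => x * t) h0
          simpa using this
        calc x * a = a * x * a⁻¹ * a := by rw [h1]
          _ = a * x := by group
      · have hz : a * (x⁻¹ * (a * x * a⁻¹)) * a⁻¹ = (x⁻¹ * (a * x * a⁻¹))⁻¹ := hInv
        intro b hb
        rcases h b hb with hbC | hbC
        · left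
          have h1 := mem_centralizer_iff.mp hbC _ (Q.mul_mem (Q.inv_mem hx) hxa)
          rw [← h1, mul_inv_cancel_right]
        · right
          have hb' : b = (b * a⁻¹) * a := by group
          have hzQ : a * (x⁻¹ * (a * x * a⁻¹)) * a⁻¹ ∈ Q :=
            (mem_normalizer_iff.mp (hAQ ha) _).mp (Q.mul_mem (Q.inv_mem hx) hxa)
          have h1 := mem_centralizer_iff.mp hbC _ hzQ
          calc b * (x⁻¹ * (a * x * a⁻¹)) * b⁻¹
              = (b * a⁻¹) * (a * (x⁻¹ * (a * x * a⁻¹)) * a⁻¹) * (b * a⁻¹)⁻¹ := by group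
            _ = a * (x⁻¹ * (a * x * a⁻¹)) * a⁻¹ := by rw [← h1, mul_inv_cancel_right]
            _ = _ := hz
      · exact hInv
    · push Not at h
      obtain ⟨b, hb, hbC, hbaC⟩ := h
      have ha1 : a ≠ 1 := by
        rintro rfl
        exact haC (one_mem _)
      have hb1 : b ≠ 1 := by
        rintro rfl
        exact hbC (one_mem _)
      have hab : b ≠ a := by
        rintro rfl
        rw [mul_inv_cancel] at hbaC
        exact hbaC (one_mem _)
      have hb2 : b ^ 2 = 1 := hexp b hb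
      have hoa : orderOf a = 2 := orderOf_eq_prime ha2 ha1
      have hob : orderOf b = 2 := orderOf_eq_prime hb2 hb1
      have hcab : a * b = b * a := hcomm a ha b hb
      have hd : zpowers a ⊓ zpowers b = ⊥ := by
        rw [eq_bot_iff]
        rintro x ⟨hxa, hxb⟩
        rw [mem_bot]
        rcases mem_zpowers_sq ha2 hxa with h1 | h1
        · exact h1
        · rcases mem_zpowers_sq hb2 hxb with h2 | h2
          · exact h2
          · exact absurd (h2.symm.trans h1) hab
      have hnorm : zpowers a ≤ normalizer ((zpowers b : Subgroup G) : Set G) := by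
        apply (centralizer_le_normalizer _).trans'
        rw [zpowers_le, mem_centralizer_iff]
        intro y hy
        obtain ⟨m, rfl⟩ := Subgroup.mem_zpowers_iff.mp hy
        exact ((show Commute b a from hcab.symm).zpow_left m).eq
      have hcard : Nat.card (zpowers a ⊔ zpowers b : Subgroup G) = 2 ^ 2 := by
        have := Cfsg.Agent.Lib.Hall.card_sup_of_le_normalizer hnorm hd
        rw [this, Nat.card_zpowers, Nat.card_zpowers, hoa, hob]
        norm_num
      have hEA : zpowers a ⊔ zpowers b ≤ A := sup_le (zpowers_le.mpr ha) (zpowers_le.mpr hb)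
      have hcop : (2 : ℕ).Coprime (Nat.card Q) := (Nat.coprime_two_left).mpr hodd
      have hgen := Cfsg.Agent.Lib.Hall.generation_elementary Nat.prime_two hcard
        (fun x hx => hexp x (hEA hx)) (Nat.card Q) Q le_rfl (hEA.trans hAQ) hcop
      have hex : ∃ c ∈ (zpowers a ⊔ zpowers b : Subgroup G), c ≠ 1 ∧
          a ∉ centralizer ((Q ⊓ centralizer ({c} : Set G) : Subgroup G) : Set G) := by
        by_contra hcon
        push Not at hcon
        apply haC
        have h1 : Q ≤ centralizer ({a} : Set G) := by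
          rw [← hgen]
          refine iSup₂_le fun c hc => ?_
          intro y hy
          rw [mem_centralizer_singleton_iff]
          have := mem_centralizer_iff.mp (hcon c hc.1 hc.2) y hy
          exact this.symm
        rw [mem_centralizer_iff]
        intro y hy
        exact (mem_centralizer_singleton_iff.mp (show y ∈ centralizer ({a} : Set G) from h1 hy)).symm
      obtain ⟨c, hcE, hc1, hcC⟩ := hex
      have hc_ne_a : c ≠ a := by
        rintro rfl
        apply hcC
        rw [mem_centralizer_iff]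
        rintro y ⟨_, hy⟩
        exact (mem_centralizer_singleton_iff.mp (show y ∈ centralizer ({c} : Set G) from hy)).symm
      have hcA : c ∈ A := hEA hcE
      have hcnC : c ∉ centralizer (Q : Set G) := by
        obtain ⟨u, hu, v, hv, rfl⟩ := Cfsg.Agent.Lib.FStar.mem_sup_of_commuting (fun x hx y hy =>
          hcomm x (zpowers_le.mpr ha hx) y (zpowers_le.mpr hb hy)) hcE
        rcases mem_zpowers_sq ha2 hu with rfl | rfl
        · rcases mem_zpowers_sq hb2 hv with rfl | rfl
          · exact absurd (by simp) hc1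
          · rwa [one_mul]
        · rcases mem_zpowers_sq hb2 hv with rfl | rfl
          · exact absurd (by simp) hc_ne_a
          · rw [hcab]
            rw [hainv] at hbaC
            exact hbaC
      have hlt : Q ⊓ centralizer ({c} : Set G) < Q := by
        refine lt_of_le_of_ne inf_le_left fun he => hcnC ?_
        rw [mem_centralizer_iff]
        intro y hy
        rw [← he] at hy
        exact (mem_centralizer_singleton_iff.mp (show y ∈ centralizer ({c} : Set G) from hy.2)).symm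
      have hcardlt := Cfsg.Agent.Lib.Core.card_lt_card_of_lt hlt
      have hN : A ≤ normalizer ((Q ⊓ centralizer ({c} : Set G) : Subgroup G) : Set G) := by
        intro b' hb'
        refine Cfsg.Agent.Lib.Uniq.mem_normalizer_inf' (hAQ hb') (Subgroup.le_normalizer ?_)
        rw [mem_centralizer_singleton_iff]
        exact hcomm c hcA b' hb'
      obtain ⟨z, hzQ, hz1, hz2, hz3⟩ := ih (Q ⊓ centralizer ({c} : Set G)) (by omega)
        (Odd.of_dvd_nat hodd (Subgroup.card_dvd_of_le inf_le_left)) hN a ha hcC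
      exact ⟨z, hzQ.1, hz1, hz2, hz3⟩

/-- `A` acts faithfully on the Fitting subgroup. -/
theorem centralizes_of_fitting {L A : Subgroup G} (hLs : Group.IsSolvable L) (hLodd : Odd (Nat.card L))
    (hA : IsElementaryAbelian 2 A) (hAL : A ≤ normalizer (L : Set G)) {a : G} (ha : a ∈ A)
    (haF : a ∈ centralizer (fittingOf L : Set G)) : a ∈ centralizer (L : Set G) := by
  have hU : zpowers a ≤ normalizer (L : Set G) := (zpowers_le.mpr ha).trans hAL
  have hUF : zpowers a ≤ centralizer (fittingOf L : Set G) := zpowers_le.mpr haF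
  have hFL : fittingOf L ≤ L := map_subtype_le _
  have hcF : ⁅zpowers a, fittingOf L⁆ = ⊥ := by
    rw [Subgroup.commutator_eq_bot_iff_le_centralizer]
    rw [← Subgroup.le_centralizer_iff] at *
    exact hUF
  have hFU : ⁅fittingOf L, zpowers a⁆ = ⊥ := by
    rw [Subgroup.commutator_comm]
    exact hcF
  have h1 : ⁅⁅zpowers a, fittingOf L⁆, L⁆ = ⊥ := by
    rw [hcF, Subgroup.commutator_bot_left]
  have h2 : ⁅⁅fittingOf L, L⁆, zpowers a⁆ = ⊥ := by
    have h3 : ⁅fittingOf L, L⁆ ≤ fittingOf L :=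
      Cfsg.Agent.Lib.Hall.commutator_le_of_normalizes (Cfsg.Agent.Lib.OddLocal.le_normalizer_fittingOf L)
    exact le_bot_iff.mp ((Subgroup.commutator_mono h3 le_rfl).trans hFU.le)
  have h3 : ⁅⁅L, zpowers a⁆, fittingOf L⁆ = ⊥ := Subgroup.commutator_commutator_eq_bot_of_rotate h1 h2
  have h4 : ⁅L, zpowers a⁆ ≤ L := Cfsg.Agent.Lib.Hall.commutator_le_of_normalizes hU
  have h5 : ⁅L, zpowers a⁆ ≤ fittingOf L := by
    intro x hx
    have hxL := h4 hx
    have hxC : x ∈ centralizer (fittingOf L : Set G) :=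
      ((Subgroup.commutator_eq_bot_iff_le_centralizer).mp h3) hx
    have hx' : (⟨x, hxL⟩ : L) ∈ centralizer (fittingSubgroup ↥L : Set ↥L) := by
      rw [mem_centralizer_iff]
      intro f hf
      apply Subtype.ext
      exact mem_centralizer_iff.mp hxC f ⟨f, hf, rfl⟩
    exact ⟨_, Cfsg.Agent.Lib.Geo.centralizer_fitting_le_of_solvable hx', rfl⟩
  have hcop : (Nat.card (zpowers a)).Coprime (Nat.card L) := by
    rw [Nat.card_zpowers]
    have h7 : orderOf a ∣ 2 := orderOf_dvd_of_pow_eq_one (hA.2 a ha)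
    exact Nat.Coprime.coprime_dvd_left h7 (Nat.coprime_two_left.mpr hLodd)
  have hfix := Cfsg.Agent.Lib.Hall.commutator_commutator_eq (zpowers a) L hU hcop (Or.inr hLs)
  have h6 : ⁅⁅L, zpowers a⁆, zpowers a⁆ = ⊥ :=
    le_bot_iff.mp ((Subgroup.commutator_mono h5 le_rfl).trans hFU.le)
  rw [hfix] at h6
  have h7 : zpowers a ≤ centralizer (L : Set G) := Cfsg.Agent.Lib.OddLocal.comm_eq_bot_iff_le_centralizer'.mp h6
  exact h7 (mem_zpowers a)

/-- An abelian invariant subgroup on which `A` is faithful. -/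
theorem exists_faithful_abelian {L A : Subgroup G} (hLs : Group.IsSolvable L) (hLodd : Odd (Nat.card L))
    (hA : IsElementaryAbelian 2 A) (hAL : A ≤ normalizer (L : Set G))
    (hfaith : A ⊓ centralizer (L : Set G) = ⊥) :
    ∃ Y ≤ L, (∀ x ∈ Y, ∀ y ∈ Y, x * y = y * x) ∧ A ≤ normalizer (Y : Set G) ∧
      A ⊓ centralizer (Y : Set G) = ⊥ := by
  classical
  obtain ⟨F, hFd⟩ : ∃ F, F = fittingOf L := ⟨_, rfl⟩
  have hFL : F ≤ L := hFd ▸ map_subtype_le _
  have hFn : Group.IsNilpotent F := hFd ▸ Cfsg.Agent.Lib.OddLocal.fittingOf_nilpotent L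
  have hAF : A ≤ normalizer (F : Set G) :=
    hAL.trans (hFd ▸ Cfsg.Agent.Lib.OddLocal.normalizer_le_normalizer_fittingOf L)
  -- minimal choice
  obtain ⟨Y, hY, hmin⟩ := Set.exists_min_image
    {Y : Subgroup G | Y ≤ F ∧ (∀ x ∈ Y, ∀ y ∈ Y, x * y = y * x) ∧ A ≤ normalizer (Y : Set G)}
    (fun Y => Nat.card (A ⊓ centralizer (Y : Set G) : Subgroup G)) (Set.toFinite _)
    ⟨⊥, bot_le, fun x hx y hy => by
      rw [mem_bot] at hx hy
      rw [hx, hy], fun a _ => by
        rw [Subgroup.normalizer_eq_top_iff.mpr inferInstance]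
        trivial⟩
  obtain ⟨hYF, hYc, hYA⟩ := hY
  refine ⟨Y, hYF.trans hFL, hYc, hYA, ?_⟩
  by_contra hne
  obtain ⟨⟨a, haA, haY⟩, ha1'⟩ := (Subgroup.ne_bot_iff_exists_ne_one.mp hne)
  have ha1 : a ≠ 1 := fun h => ha1' (Subtype.ext h)
  have hFodd : Odd (Nat.card F) := Odd.of_dvd_nat hLodd (Subgroup.card_dvd_of_le hFL)
  have hcomm : ∀ x ∈ A, ∀ y ∈ A, x * y = y * x := fun x hx y hy =>
    congrArg Subtype.val (hA.1.is_comm.comm ⟨x, hx⟩ ⟨y, hy⟩)
  obtain ⟨D, hDd⟩ : ∃ D, D = F ⊓ centralizer (Y : Set G) := ⟨_, rfl⟩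
  have hDF : D ≤ F := hDd ▸ inf_le_left
  have hDodd : Odd (Nat.card D) := Odd.of_dvd_nat hFodd (Subgroup.card_dvd_of_le hDF)
  have hAC : A ≤ normalizer (centralizer (Y : Set G) : Set G) := by
    intro b hb
    have hY2 := hYA hb
    rw [mem_normalizer_iff]
    intro c
    rw [mem_centralizer_iff, mem_centralizer_iff]
    constructor
    · intro hc y hy
      have h1 : b⁻¹ * y * b⁻¹⁻¹ ∈ Y := (mem_normalizer_iff.mp (Subgroup.inv_mem _ hY2) y).mp hy
      have h2 := hc _ h1
      calc y * (b * c * b⁻¹) = b * ((b⁻¹ * y * b⁻¹⁻¹) * c) * b⁻¹ := by group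
        _ = b * (c * (b⁻¹ * y * b⁻¹⁻¹)) * b⁻¹ := by rw [h2]
        _ = _ := by group
    · intro hc y hy
      have h1 : b * y * b⁻¹ ∈ Y := (mem_normalizer_iff.mp hY2 y).mp hy
      have h2 := hc _ h1
      calc y * c = b⁻¹ * ((b * y * b⁻¹) * (b * c * b⁻¹)) * b := by group
        _ = b⁻¹ * ((b * c * b⁻¹) * (b * y * b⁻¹)) * b := by rw [h2]
        _ = _ := by group
  have hAD : A ≤ normalizer (D : Set G) := fun b hb => by
    rw [hDd]
    exact Cfsg.Agent.Lib.Uniq.mem_normalizer_inf' (hAF hb) (hAC hb)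
  have hYD : Y ≤ F ⊓ centralizer ((zpowers a : Subgroup G) : Set G) := by
    refine le_inf hYF ?_
    rw [← Subgroup.le_centralizer_iff]
    exact zpowers_le.mpr haY
  have hDC : a ∉ centralizer (D : Set G) := by
    intro hC
    have hU : zpowers a ≤ normalizer (F : Set G) := (zpowers_le.mpr haA).trans hAF
    have hcop : (Nat.card (zpowers a)).Coprime (Nat.card F) := by
      rw [Nat.card_zpowers]
      have h7 : orderOf a ∣ 2 := orderOf_dvd_of_pow_eq_one (hA.2 a haA)
      exact Nat.Coprime.coprime_dvd_left h7 (Nat.coprime_two_left.mpr hFodd)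
    have h1 := Cfsg.Agent.Lib.OddLocal.centralizes_of_self_centralizing hFn hU hcop (by
      rintro x ⟨hxF, hxC⟩
      refine ⟨hxF, ?_⟩
      have hxY : x ∈ centralizer (Y : Set G) :=
        Subgroup.centralizer_le (fun y hy => hYD hy) hxC
      have hxD : x ∈ D := hDd ▸ ⟨hxF, hxY⟩
      show x ∈ centralizer ((zpowers a : Subgroup G) : Set G)
      rw [mem_centralizer_iff]
      intro u hu
      obtain ⟨m, rfl⟩ := Subgroup.mem_zpowers_iff.mp hu
      have h3 : Commute a x := mem_centralizer_iff.mp hC x hxD |>.symm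
      exact (h3.zpow_left m).eq)
    have h2 : a ∈ centralizer (F : Set G) := h1 (mem_zpowers a)
    have h3 := centralizes_of_fitting hLs hLodd hA hAL haA (hFd ▸ h2)
    have h4 : a ∈ A ⊓ centralizer (L : Set G) := ⟨haA, h3⟩
    rw [hfaith] at h4
    exact ha1 h4
  obtain ⟨z, hzD, hz1, hzb, hza⟩ := exists_eigen hA (Nat.card D) D le_rfl hDodd hAD a haA hDC
  have hzF : z ∈ F := hDF hzD
  have hzY : z ∈ centralizer (Y : Set G) := by
    rw [hDd] at hzD
    exact hzD.2
  have hzodd : Odd (orderOf z) := by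
    have h1 := orderOf_dvd_natCard (⟨z, hzD⟩ : D)
    rw [Subgroup.orderOf_mk] at h1
    exact Odd.of_dvd_nat hDodd h1
  -- the larger subgroup
  have hsupF : Y ⊔ zpowers z ≤ F := sup_le hYF (zpowers_le.mpr hzF)
  have hsupC : Y ⊔ zpowers z ≤ centralizer ((Y ⊔ zpowers z : Subgroup G) : Set G) := by
    have h1 : Y ≤ centralizer (Y : Set G) := by
      intro y hy
      rw [mem_centralizer_iff]
      intro y' hy'
      exact hYc y' hy' y hy
    have h2 : Y ⊔ zpowers z ≤ centralizer (Y : Set G) := sup_le h1 (zpowers_le.mpr hzY)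
    have h3 : zpowers z ≤ centralizer ((zpowers z : Subgroup G) : Set G) := by
      rw [zpowers_le, mem_centralizer_iff]
      intro u hu
      obtain ⟨m, rfl⟩ := Subgroup.mem_zpowers_iff.mp hu
      exact ((Commute.refl z).zpow_left m).eq
    have h4 : Y ⊔ zpowers z ≤ centralizer ((zpowers z : Subgroup G) : Set G) := by
      refine sup_le ?_ h3
      rw [← Subgroup.le_centralizer_iff]
      exact zpowers_le.mpr hzY
    refine sup_le ?_ ?_
    · rw [← Subgroup.le_centralizer_iff]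
      exact h2
    · rw [← Subgroup.le_centralizer_iff]
      exact h4
  have hsupA : A ≤ normalizer ((Y ⊔ zpowers z : Subgroup G) : Set G) := by
    intro b hb
    refine Cfsg.Agent.Lib.Hall.mem_normalizer_of_conj_le ?_
    intro x hx
    have h1 : Y ⊔ zpowers z ≤ (Y ⊔ zpowers z).comap (MulAut.conj b).toMonoidHom := by
      refine sup_le ?_ ?_
      · intro y hy
        exact Subgroup.mem_sup_left ((mem_normalizer_iff.mp (hYA hb) y).mp hy)
      · rw [zpowers_le]
        rcases hzb b hb with h | h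
        · rw [Subgroup.mem_comap]
          show b * z * b⁻¹ ∈ _
          rw [h]
          exact Subgroup.mem_sup_right (mem_zpowers z)
        · rw [Subgroup.mem_comap]
          show b * z * b⁻¹ ∈ _
          rw [h]
          exact Subgroup.mem_sup_right (Subgroup.inv_mem _ (mem_zpowers z))
    exact h1 hx
  have hlt : A ⊓ centralizer ((Y ⊔ zpowers z : Subgroup G) : Set G) < A ⊓ centralizer (Y : Set G) := by
    refine lt_of_le_of_ne (inf_le_inf_left _ (Subgroup.centralizer_le (fun y hy => Subgroup.mem_sup_left hy))) ?_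
    intro he
    have h1 : a ∈ A ⊓ centralizer ((Y ⊔ zpowers z : Subgroup G) : Set G) := by
      rw [he]
      exact ⟨haA, haY⟩
    have h2 := mem_centralizer_iff.mp h1.2 z (Subgroup.mem_sup_right (mem_zpowers z))
    have h3 : a * z * a⁻¹ = z := by
      rw [← h2, mul_inv_cancel_right]
    rw [hza] at h3
    exact ne_inv_of_odd hzodd hz1 h3
  have := hmin (Y ⊔ zpowers z) ⟨hsupF, fun x hx y hy => by
    have := mem_centralizer_iff.mp (hsupC hy) x hx
    exact this, hsupA⟩
  have h5 := Cfsg.Agent.Lib.Core.card_lt_card_of_lt hlt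
  omega

/-- Dual bases. -/
theorem exists_dual {A Y : Subgroup G} (hA : IsElementaryAbelian 2 A) (hYodd : Odd (Nat.card Y))
    (hAY : A ≤ normalizer (Y : Set G)) :
    ∀ (k : ℕ) (H : Subgroup G), H ≤ A → Nat.card H = 2 ^ k → H ⊓ centralizer (Y : Set G) = ⊥ →
    ∃ a z : Fin k → G, (∀ i, a i ∈ H) ∧ (∀ i, z i ∈ Y ∧ z i ≠ 1) ∧
      (∀ i, ∀ b ∈ A, b * z i * b⁻¹ = z i ∨ b * z i * b⁻¹ = (z i)⁻¹) ∧
      (∀ i, a i * z i * (a i)⁻¹ = (z i)⁻¹) ∧ (∀ i j, i ≠ j → a i * z j * (a i)⁻¹ = z j) ∧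
      (⨆ i, zpowers (a i)) = H := by
  classical
  have hexp := hA.2
  have hcomm : ∀ x ∈ A, ∀ y ∈ A, x * y = y * x := fun x hx y hy =>
    congrArg Subtype.val (hA.1.is_comm.comm ⟨x, hx⟩ ⟨y, hy⟩)
  intro k
  induction k with
  | zero =>
    intro H _ hH _
    refine ⟨Fin.elim0, Fin.elim0, fun i => i.elim0, fun i => i.elim0, fun i => i.elim0, fun i => i.elim0,
      fun i => i.elim0, ?_⟩
    rw [iSup_of_empty]
    symm
    rw [← Subgroup.card_eq_one, hH, pow_zero]
  | succ k ih =>
    intro H hHA hH hf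
    -- a non-identity element
    have h1H : 1 < Nat.card H := by
      rw [hH]
      exact Nat.one_lt_two_pow (by omega)
    have hHne : H ≠ ⊥ := by
      rintro rfl
      rw [Subgroup.card_bot] at h1H
      omega
    obtain ⟨⟨a₀, ha₀H⟩, ha₀1'⟩ := Subgroup.ne_bot_iff_exists_ne_one.mp hHne
    have ha₀1 : a₀ ≠ 1 := fun h => ha₀1' (Subtype.ext h)
    have ha₀A := hHA ha₀H
    have ha₀2 : a₀ ^ 2 = 1 := hexp a₀ ha₀A
    have ha₀inv : a₀⁻¹ = a₀ := by
      rw [inv_eq_iff_mul_eq_one, ← sq, ha₀2]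
    have ha₀C : a₀ ∉ centralizer (Y : Set G) := by
      intro h
      have h2 : a₀ ∈ H ⊓ centralizer (Y : Set G) := ⟨ha₀H, h⟩
      rw [hf] at h2
      exact ha₀1 h2
    obtain ⟨z₀, hz₀Y, hz₀1, hz₀b, hz₀a⟩ := exists_eigen hA (Nat.card Y) Y le_rfl hYodd hAY a₀ ha₀A ha₀C
    have hz₀odd : Odd (orderOf z₀) := by
      have h1 := orderOf_dvd_natCard (⟨z₀, hz₀Y⟩ : Y)
      rw [Subgroup.orderOf_mk] at h1
      exact Odd.of_dvd_nat hYodd h1
    have hz₀ne := ne_inv_of_odd hz₀odd hz₀1
    -- the hyperplane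
    obtain ⟨H₁, hH₁d⟩ : ∃ H₁, H₁ = H ⊓ centralizer ({z₀} : Set G) := ⟨_, rfl⟩
    have hH₁H : H₁ ≤ H := hH₁d ▸ inf_le_left
    have hH₁fix : ∀ c ∈ H₁, c * z₀ * c⁻¹ = z₀ := by
      intro c hc
      rw [hH₁d] at hc
      have := mem_centralizer_singleton_iff.mp (show c ∈ centralizer ({z₀} : Set G) from hc.2)
      rw [← this, mul_inv_cancel_right]
    have hmemH₁ : ∀ c ∈ H, c * z₀ * c⁻¹ = z₀ → c ∈ H₁ := by
      intro c hc h
      rw [hH₁d]
      refine ⟨hc, ?_⟩
      show c ∈ centralizer ({z₀} : Set G)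
      rw [mem_centralizer_singleton_iff]
      calc z₀ * c = c * z₀ * c⁻¹ * c := by rw [h]
        _ = c * z₀ := by group
    have ha₀H₁ : a₀ ∉ H₁ := fun h => hz₀ne ((hz₀a.symm).trans (hH₁fix a₀ h))
    have hsup : H₁ ⊔ zpowers a₀ = H := by
      apply le_antisymm (sup_le hH₁H (zpowers_le.mpr ha₀H))
      intro b hb
      rcases hz₀b b (hHA hb) with h | h
      · exact Subgroup.mem_sup_left (hmemH₁ b hb h)
      · have h2 : b * a₀ ∈ H₁ := by
          apply hmemH₁ _ (H.mul_mem hb ha₀H)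
          calc b * a₀ * z₀ * (b * a₀)⁻¹ = b * (a₀ * z₀ * a₀⁻¹) * b⁻¹ := by group
            _ = b * z₀⁻¹ * b⁻¹ := by rw [hz₀a]
            _ = (b * z₀ * b⁻¹)⁻¹ := by group
            _ = z₀ := by rw [h, inv_inv]
        have h3 : b = (b * a₀) * a₀ := by
          rw [mul_assoc, ← sq, ha₀2, mul_one]
        rw [h3]
        exact Subgroup.mul_mem _ (Subgroup.mem_sup_left h2) (Subgroup.mem_sup_right (mem_zpowers a₀))
    have hinf : H₁ ⊓ zpowers a₀ = ⊥ := by
      rw [eq_bot_iff]
      rintro x ⟨hx1, hx2⟩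
      rw [mem_bot]
      rcases mem_zpowers_sq ha₀2 hx2 with h | h
      · exact h
      · exact absurd (h ▸ hx1) ha₀H₁
    have hnorm : zpowers a₀ ≤ normalizer ((H₁ : Subgroup G) : Set G) := by
      apply (centralizer_le_normalizer _).trans'
      rw [zpowers_le, mem_centralizer_iff]
      intro y hy
      exact hcomm y (hHA (hH₁H hy)) a₀ ha₀A
    have hcard : Nat.card H₁ = 2 ^ k := by
      have h4 := Cfsg.Agent.Lib.Hall.card_sup_of_le_normalizer hnorm (by rwa [inf_comm])
      rw [sup_comm, hsup, hH, Nat.card_zpowers, orderOf_eq_prime ha₀2 ha₀1] at h4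
      rw [pow_succ, mul_comm] at h4
      have h5 : Nat.card H₁ * 2 = 2 ^ k * 2 := by
        rw [mul_comm]
        linarith
      exact Nat.eq_of_mul_eq_mul_right (by norm_num) h5
    have hf₁ : H₁ ⊓ centralizer (Y : Set G) = ⊥ := by
      rw [eq_bot_iff, ← hf]
      exact inf_le_inf_right _ hH₁H
    obtain ⟨a', z', ha', hz', hzb', hinv', hfix', hgen'⟩ := ih H₁ (hH₁H.trans hHA) hcard hf₁
    -- sign adjustment
    have hsign : ∀ I : Finset (Fin k), ∃ c ∈ H₁, ∀ j, c * z' j * c⁻¹ = if j ∈ I then (z' j)⁻¹ else z' j := by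
      intro I
      induction I using Finset.induction_on with
      | empty => exact ⟨1, one_mem _, fun j => by simp⟩
      | insert i I hi ih2 =>
        obtain ⟨c, hc, hcj⟩ := ih2
        refine ⟨a' i * c, H₁.mul_mem (ha' i) hc, fun j => ?_⟩
        have e : a' i * c * z' j * (a' i * c)⁻¹ = a' i * (c * z' j * c⁻¹) * (a' i)⁻¹ := by group
        rw [e, hcj j]
        by_cases hji : j = i
        · subst hji
          rw [if_neg hi, hinv', if_pos (Finset.mem_insert_self _ _)]
        · by_cases hjI : j ∈ I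
          · rw [if_pos hjI, if_pos (Finset.mem_insert_of_mem hjI)]
            have e2 : a' i * (z' j)⁻¹ * (a' i)⁻¹ = (a' i * z' j * (a' i)⁻¹)⁻¹ := by group
            rw [e2, hfix' i j (Ne.symm hji)]
          · rw [if_neg hjI, if_neg (by simp [hji, hjI]), hfix' i j (Ne.symm hji)]
    obtain ⟨c, hc, hcj⟩ := hsign (Finset.univ.filter fun j => a₀ * z' j * a₀⁻¹ = (z' j)⁻¹)
    have hcH := hH₁H hc
    refine ⟨Fin.cons (a₀ * c) a', Fin.cons z₀ z', ?_, ?_, ?_, ?_, ?_, ?_⟩
    · intro i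
      refine Fin.cases ?_ (fun i => ?_) i
      · exact H.mul_mem ha₀H hcH
      · exact hH₁H (ha' i)
    · intro i
      refine Fin.cases ?_ (fun i => ?_) i
      · exact ⟨hz₀Y, hz₀1⟩
      · exact hz' i
    · intro i
      refine Fin.cases ?_ (fun i => ?_) i
      · exact hz₀b
      · exact hzb' i
    · intro i
      refine Fin.cases ?_ (fun i => ?_) i
      · simp only [Fin.cons_zero]
        calc a₀ * c * z₀ * (a₀ * c)⁻¹ = a₀ * (c * z₀ * c⁻¹) * a₀⁻¹ := by group
          _ = z₀⁻¹ := by rw [hH₁fix c hc, hz₀a]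
      · simpa using hinv' i
    · have hzero : ∀ j, (a₀ * c) * z' j * (a₀ * c)⁻¹ = z' j := by
        intro j
        have e : (a₀ * c) * z' j * (a₀ * c)⁻¹ = a₀ * (c * z' j * c⁻¹) * a₀⁻¹ := by group
        rw [e, hcj j]
        by_cases hj : a₀ * z' j * a₀⁻¹ = (z' j)⁻¹
        · rw [if_pos (by simp [hj])]
          have e2 : a₀ * (z' j)⁻¹ * a₀⁻¹ = (a₀ * z' j * a₀⁻¹)⁻¹ := by group
          rw [e2, hj, inv_inv]
        · rw [if_neg (by simp [hj])]
          rcases hzb' j a₀ ha₀A with h | h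
          · exact h
          · exact absurd h hj
      intro i j
      refine Fin.cases ?_ (fun i => ?_) i
      · refine Fin.cases ?_ (fun j => ?_) j
        · intro h
          exact absurd rfl h
        · intro _
          simpa using hzero j
      · refine Fin.cases ?_ (fun j => ?_) j
        · intro _
          simpa using hH₁fix _ (ha' i)
        · intro h
          have hij : i ≠ j := fun e => h (by rw [e])
          simpa using hfix' i j hij
    · apply le_antisymm
      · refine iSup_le fun i => ?_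
        rw [zpowers_le]
        refine Fin.cases ?_ (fun i => ?_) i
        · exact H.mul_mem ha₀H hcH
        · exact hH₁H (ha' i)
      · have hH₁le : H₁ ≤ ⨆ i, zpowers ((Fin.cons (a₀ * c) a' : Fin (k + 1) → G) i) := by
          rw [← hgen']
          refine iSup_le fun i => ?_
          have := le_iSup (fun i => zpowers ((Fin.cons (a₀ * c) a' : Fin (k + 1) → G) i)) (Fin.succ i)
          simpa using this
        have ha₀le : a₀ ∈ ⨆ i, zpowers ((Fin.cons (a₀ * c) a' : Fin (k + 1) → G) i) := by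
          have h0 : a₀ * c ∈ ⨆ i, zpowers ((Fin.cons (a₀ * c) a' : Fin (k + 1) → G) i) := by
            have := le_iSup (fun i => zpowers ((Fin.cons (a₀ * c) a' : Fin (k + 1) → G) i)) 0
            apply this
            simp
          have h1 := Subgroup.mul_mem _ h0 (Subgroup.inv_mem _ (hH₁le hc))
          simpa using h1
        rw [← hsup]
        exact sup_le hH₁le (zpowers_le.mpr ha₀le)

theorem dihedral_of_inverting {a z : G} (ha2 : a * a = 1) (ha1 : a ≠ 1) (hz : Odd (orderOf z)) (hz1 : z ≠ 1)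
    (hinv : a * z * a⁻¹ = z⁻¹) :
    Nonempty (↥(zpowers a ⊔ zpowers z) ≃* DihedralGroup (orderOf z)) := by
  have hainv : a⁻¹ = a := inv_eq_of_mul_eq_one_left ha2
  have hyy : a * z * (a * z) = 1 := by
    have h : a * z * a = z⁻¹ := by
      have := hinv
      rwa [hainv] at this
    calc a * z * (a * z) = (a * z * a) * z := by group
      _ = 1 := by rw [h]; group
  have hy1 : a * z ≠ 1 := by
    intro h
    have h1 : z = a := by
      have h2 : z = a⁻¹ := by
        rw [eq_inv_iff_mul_eq_one, ← h]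
        have h3 : z * a = a⁻¹ * (a * z) * a := by group
        rw [h3, h]
        rw [hainv]
        simpa using ha2
      rw [h2, hainv]
    apply ne_inv_of_odd hz hz1
    rw [h1, hainv]
  have hxy : a ≠ a * z := by
    intro h
    exact hz1 (by simpa using h)
  obtain ⟨e⟩ := Cfsg.Agent.Lib.Invol.isDihedral_closure ha2 hyy ha1 hy1 hxy
  have h1 : a * (a * z) = z := by
    rw [← mul_assoc, ha2, one_mul]
  rw [h1] at e
  have h2 : Subgroup.closure ({a, a * z} : Set G) = zpowers a ⊔ zpowers z := by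
    apply le_antisymm
    · rw [Subgroup.closure_le]
      rintro x (rfl | rfl)
      · exact Subgroup.mem_sup_left (mem_zpowers _)
      · exact Subgroup.mul_mem _ (Subgroup.mem_sup_left (mem_zpowers _)) (Subgroup.mem_sup_right (mem_zpowers _))
    · refine sup_le (zpowers_le.mpr (Subgroup.subset_closure (by simp))) (zpowers_le.mpr ?_)
      have h3 : a ∈ Subgroup.closure ({a, a * z} : Set G) := Subgroup.subset_closure (by simp)
      have h4 : a * z ∈ Subgroup.closure ({a, a * z} : Set G) := Subgroup.subset_closure (by simp)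
      have := Subgroup.mul_mem _ h3 h4
      rwa [h1] at this
  exact ⟨(MulEquiv.subgroupCongr h2.symm).trans e⟩

theorem sup_zpowers_commute {g₁ g₂ h₁ h₂ : G} (h11 : g₁ * h₁ = h₁ * g₁) (h12 : g₁ * h₂ = h₂ * g₁)
    (h21 : g₂ * h₁ = h₁ * g₂) (h22 : g₂ * h₂ = h₂ * g₂) :
    ∀ x ∈ zpowers g₁ ⊔ zpowers g₂, ∀ y ∈ zpowers h₁ ⊔ zpowers h₂, x * y = y * x := by
  have key : ∀ g, g * h₁ = h₁ * g → g * h₂ = h₂ * g →
      g ∈ centralizer ((zpowers h₁ ⊔ zpowers h₂ : Subgroup G) : Set G) := by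
    intro g h1 h2
    have h3 : zpowers h₁ ⊔ zpowers h₂ ≤ centralizer ({g} : Set G) := by
      refine sup_le (zpowers_le.mpr ?_) (zpowers_le.mpr ?_)
      · rw [mem_centralizer_singleton_iff]
        exact h1
      · rw [mem_centralizer_singleton_iff]
        exact h2
    rw [mem_centralizer_iff]
    intro y hy
    exact (mem_centralizer_singleton_iff.mp (show y ∈ centralizer ({g} : Set G) from h3 hy)).symm
  have h4 : zpowers g₁ ⊔ zpowers g₂ ≤ centralizer ((zpowers h₁ ⊔ zpowers h₂ : Subgroup G) : Set G) :=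
    sup_le (zpowers_le.mpr (key _ h11 h12)) (zpowers_le.mpr (key _ h21 h22))
  intro x hx y hy
  exact (mem_centralizer_iff.mp (h4 hx) y hy).symm

/-- **The Thompson dihedral lemma.** -/
theorem thompson_dihedral (L A : Subgroup G) (hLs : Group.IsSolvable L) (hLodd : Odd (Nat.card L))
    (hA : IsElementaryAbelian 2 A) (d : ℕ) (hAd : Nat.card A = 2 ^ d)
    (hAL : A ≤ normalizer (L : Set G)) (hfaith : A ⊓ centralizer (L : Set G) = ⊥) :
    ∃ (Ai : Fin d → Subgroup G) (Li : Fin d → Subgroup G) (n : Fin d → ℕ),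
      (∀ i, Ai i ≤ A ∧ Nat.card (Ai i) = 2 ∧ Li i ≤ L ∧ Odd (n i) ∧ 3 ≤ n i ∧
        Nonempty (↥(Ai i ⊔ Li i) ≃* DihedralGroup (n i))) ∧
      (⨆ i, Ai i) = A ∧ ∀ i j, i ≠ j → ∀ x ∈ Ai i ⊔ Li i, ∀ y ∈ Ai j ⊔ Li j, x * y = y * x := by
  obtain ⟨Y, hYL, hYc, hAY, hf⟩ := exists_faithful_abelian hLs hLodd hA hAL hfaith
  have hYodd : Odd (Nat.card Y) := Odd.of_dvd_nat hLodd (Subgroup.card_dvd_of_le hYL)
  obtain ⟨a, z, ha, hz, -, hinv, hfix, hgen⟩ := exists_dual hA hYodd hAY d A le_rfl hAd hf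
  have hcomm : ∀ x ∈ A, ∀ y ∈ A, x * y = y * x := fun x hx y hy =>
    congrArg Subtype.val (hA.1.is_comm.comm ⟨x, hx⟩ ⟨y, hy⟩)
  have hzodd : ∀ i, Odd (orderOf (z i)) := by
    intro i
    have h1 := orderOf_dvd_natCard (⟨z i, (hz i).1⟩ : Y)
    rw [Subgroup.orderOf_mk] at h1
    exact Odd.of_dvd_nat hYodd h1
  have ha1 : ∀ i, a i ≠ 1 := by
    intro i h
    have h1 := hinv i
    rw [h] at h1
    simp only [one_mul, inv_one, mul_one] at h1
    exact ne_inv_of_odd (hzodd i) (hz i).2 h1.symm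
  have hcomm2 : ∀ i j, i ≠ j → a i * z j = z j * a i := by
    intro i j hij
    have h1 := hfix i j hij
    calc a i * z j = a i * z j * (a i)⁻¹ * a i := by group
      _ = z j * a i := by rw [h1]
  refine ⟨fun i => zpowers (a i), fun i => zpowers (z i), fun i => orderOf (z i), ?_, hgen, ?_⟩
  · intro i
    have ha2 : (a i) ^ 2 = 1 := hA.2 _ (ha i)
    refine ⟨zpowers_le.mpr (ha i), ?_, zpowers_le.mpr (hYL (hz i).1), hzodd i, ?_, ?_⟩
    · rw [Nat.card_zpowers]
      exact orderOf_eq_prime ha2 (ha1 i)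
    · show 3 ≤ orderOf (z i)
      obtain ⟨k, hk⟩ := hzodd i
      have h1 : orderOf (z i) ≠ 1 := fun h => (hz i).2 (orderOf_eq_one_iff.mp h)
      omega
    · exact dihedral_of_inverting (by rw [← sq, ha2]) (ha1 i) (hzodd i) (hz i).2 (hinv i)
  · intro i j hij
    apply sup_zpowers_commute
    · exact hcomm _ (ha i) _ (ha j)
    · exact hcomm2 i j hij
    · exact (hcomm2 j i (Ne.symm hij)).symm
    · exact hYc _ (hz i).1 _ (hz j).1

end Cfsg.Agent.Lib.OddLocal.Dih
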